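import Cfsg.Agent.H794.MonSevenTop
import Cfsg.Agent.H464.RM.ZC

/-!
# S3849, P11: the Monster, `(7,13)`, `(7,19)`: the abstract part (helper321)

`R` is the subgroup of order `7 ^ 5` with `[R, R] = Z(R) = ⟨x⟩` (helper794).

* `center_R`, `abelian_small` : an abelian subgroup of `R` has order at most `7 ^ 3`;
* `exists_center` : the centre of a Sylow 7-subgroup has order at most 49;
* `not_dvd_of_inv` : `7 ^ 5` does not divide `|C(y)|` for `y` of odd order, `7` prime to `|C(y) ∩ C(z)|` (the Sylow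
  7-subgroups of `C(y)` are inverted by `z`).
-/

set_option autoImplicit false

namespace Cfsg.Agent.H321.RM

open Subgroup Cfsg Cfsg.Agent.H794.MonCore Cfsg.Agent.H794.MonSevenLoc Cfsg.Agent.H794.MonSevenBig
open Cfsg.Agent.H464.RM
open Cfsg.Agent.H555.RV (card_inf_mul)

universe u

section abstract

variable {G : Type u} [Group G] [Finite G] {x z k : G} {R E : Subgroup G}

/-- `Z(R) = ⟨x⟩` -/
theorem center_R (h : Big x z R E k) (hL : Loc x z) (hna : ¬ ∀ a ∈ R, ∀ b ∈ R, a * b = b * a) :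
    R ⊓ centralizer (R : Set G) = zpowers x := by
  have hx : x ∈ R ⊓ centralizer (R : Set G) := ⟨h.xR, mem_centralizer_iff.2 fun r hr => h.Rx r hr⟩
  have hk : ∀ w ∈ R ⊓ centralizer (R : Set G), k * w * k⁻¹ ∈ R ⊓ centralizer (R : Set G) := by
    intro w hw
    refine ⟨h.kR w hw.1, mem_centralizer_iff.2 fun r hr => ?_⟩
    -- `k⁻¹ r k` is in `R`
    have h3 : k⁻¹ * r * k ∈ R := by
      obtain ⟨f, hf⟩ := h.kf
      have h4 : ∀ n : ℕ, ∀ r ∈ R, k ^ n * r * (k ^ n)⁻¹ ∈ R := by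
        intro n
        induction n with
        | zero => intro r hr; simpa using hr
        | succ n ih =>
          intro r hr
          have := h.kR _ (ih r hr)
          rwa [show k * (k ^ n * r * (k ^ n)⁻¹) * k⁻¹ = k ^ (n + 1) * r * (k ^ (n + 1))⁻¹ by
            rw [pow_succ']; group] at this
      have h5 : k ^ (5 ^ f - 1) = k⁻¹ := by
        rw [eq_inv_iff_mul_eq_one, ← pow_succ]
        have : 5 ^ f - 1 + 1 = 5 ^ f := Nat.succ_pred_eq_of_pos (pow_pos (by norm_num) f)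
        rw [this, hf]
      have h6 := h4 (5 ^ f - 1) r hr
      rwa [h5, inv_inv] at h6
    have h4 := mem_centralizer_iff.1 hw.2 _ h3
    calc r * (k * w * k⁻¹) = k * ((k⁻¹ * r * k) * w) * k⁻¹ := by group
      _ = k * (w * (k⁻¹ * r * k)) * k⁻¹ := by rw [h4]
      _ = k * w * k⁻¹ * r := by group
  rcases h.irr hL hx inf_le_left hk with h1 | h1
  · exact h1
  · exfalso
    apply hna
    intro a ha b hb
    have hb' : b ∈ R ⊓ centralizer (R : Set G) := by rw [h1]; exact hb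
    exact mem_centralizer_iff.1 hb'.2 a ha

/-- `b ↦ [b, r]` -/
theorem card_cent_ge (h : Big x z R E k) (hL : Loc x z) {B : Subgroup G} (hB : B ≤ R) {r : G} (hr : r ∈ R) :
    Nat.card B ≤ Nat.card ↥(B ⊓ centralizer {r}) * 7 := by
  let φ : B →* zpowers x :=
    { toFun := fun b => ⟨(b : G) * r * (b : G)⁻¹ * r⁻¹, h.comm _ (hB b.2) r hr⟩
      map_one' := Subtype.ext (by simp)
      map_mul' := fun a b => Subtype.ext (by
        show (a * b : G) * r * (a * b : G)⁻¹ * r⁻¹ = (a * r * (a : G)⁻¹ * r⁻¹) * (b * r * (b : G)⁻¹ * r⁻¹)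
        have h1 : (b : G) * r * (b : G)⁻¹ * r⁻¹ ∈ zpowers x := h.comm _ (hB b.2) r hr
        have h2 : (a : G) * ((b : G) * r * (b : G)⁻¹ * r⁻¹) * (a : G)⁻¹ = (b : G) * r * (b : G)⁻¹ * r⁻¹ :=
          conj_zpowers_of_comm (h.Rx _ (hB a.2)) h1
        have h3 : (a : G) * r * (a : G)⁻¹ * r⁻¹ ∈ zpowers x := h.comm _ (hB a.2) r hr
        have h4 : (a * r * (a : G)⁻¹ * r⁻¹) * (b * r * (b : G)⁻¹ * r⁻¹) =
            (b * r * (b : G)⁻¹ * r⁻¹) * (a * r * (a : G)⁻¹ * r⁻¹) := by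
          obtain ⟨i, hi⟩ := mem_zpowers_iff.1 h1
          obtain ⟨j, hj⟩ := mem_zpowers_iff.1 h3
          rw [← hi, ← hj, ← zpow_add, ← zpow_add, add_comm]
        rw [h4]
        calc (a * b : G) * r * (a * b : G)⁻¹ * r⁻¹
            = (a * (b * r * (b : G)⁻¹ * r⁻¹) * (a : G)⁻¹) * (a * r * (a : G)⁻¹ * r⁻¹) := by group
          _ = _ := by rw [h2]) }
  have h1 : Nat.card φ.ker * φ.ker.index = Nat.card B := φ.ker.card_mul_index
  have h2 : φ.ker.index ∣ 7 := by
    rw [Subgroup.index_ker, ← card_zx hL]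
    exact card_subgroup_dvd_card _
  have h3 : Nat.card φ.ker = Nat.card ↥(B ⊓ centralizer {r}) := by
    have h4 : φ.ker.map B.subtype = B ⊓ centralizer {r} := by
      ext y
      constructor
      · rintro ⟨b, hb, rfl⟩
        refine ⟨b.2, ?_⟩
        show (b : G) ∈ centralizer {r}
        rw [mem_centralizer_singleton_iff]
        have h5 : (b : G) * r * (b : G)⁻¹ * r⁻¹ = 1 := congrArg Subtype.val hb
        rw [mul_inv_eq_one, mul_inv_eq_iff_eq_mul] at h5
        exact h5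
      · rintro ⟨hy, hyr⟩
        refine ⟨⟨y, hy⟩, ?_, rfl⟩
        have hyr : y * r = r * y := mem_centralizer_singleton_iff.1 hyr
        rw [SetLike.mem_coe, MonoidHom.mem_ker]
        refine Subtype.ext ?_
        show y * r * y⁻¹ * r⁻¹ = 1
        rw [hyr, mul_inv_cancel_right, mul_inv_cancel]
    rw [← h4, card_map_of_injective B.subtype_injective]
  rw [← h1, h3]
  exact Nat.mul_le_mul_left _ (Nat.le_of_dvd (by norm_num) h2)

/-- an abelian subgroup of `R` has order less than `7 ^ 4` -/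
theorem abelian_small (h : Big x z R E k) (hL : Loc x z) (hna : ¬ ∀ a ∈ R, ∀ b ∈ R, a * b = b * a)
    {B : Subgroup G} (hB : B ≤ R) (hab : ∀ a ∈ B, ∀ b ∈ B, a * b = b * a) : ¬ 7 ^ 4 ≤ Nat.card B := by
  intro hc
  have hne : ∃ r ∈ R, r ∉ B := by
    by_contra hcon
    push Not at hcon
    exact hna fun a ha b hb => hab a (hcon a ha) b (hcon b hb)
  obtain ⟨r, hr, hrB⟩ := hne
  -- `R = B ⟨r⟩`
  have hRP := h.RP
  have hf7 := prime_seven
  obtain ⟨n, hn⟩ := IsPGroup.iff_card.1 (hRP.to_le (show B ⊔ zpowers r ≤ R from sup_le hB (zpowers_le.2 hr)))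
  obtain ⟨m, hm⟩ := IsPGroup.iff_card.1 (hRP.to_le hB)
  have hm4 : 4 ≤ m := by
    rw [hm] at hc
    exact (Nat.pow_le_pow_iff_right (by norm_num : 1 < 7)).1 hc
  have hmn : m < n := by
    have h1 : Nat.card B ≤ Nat.card ↥(B ⊔ zpowers r) := card_le_of_le le_sup_left
    rw [hm, hn] at h1
    have h2 := (Nat.pow_le_pow_iff_right (by norm_num : 1 < 7)).1 h1
    refine lt_of_le_of_ne h2 fun h3 => hrB ?_
    have h4 : B = B ⊔ zpowers r := eq_of_le_of_card_ge le_sup_left (by rw [hm, hn, h3])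
    rw [h4]
    exact mem_sup_right (mem_zpowers r)
  have hR : B ⊔ zpowers r = R := by
    refine eq_of_le_of_card_ge (sup_le hB (zpowers_le.2 hr)) ?_
    rw [hn, h.cardR]
    exact Nat.pow_le_pow_right (by norm_num) (by omega)
  have h1 : B ⊓ centralizer {r} ≤ R ⊓ centralizer (R : Set G) := by
    rintro y ⟨hy, hyr⟩
    refine ⟨hB hy, ?_⟩
    have h2 : B ⊔ zpowers r ≤ centralizer {y} := by
      refine sup_le (fun b hb => mem_centralizer_singleton_iff.2 (hab b hb y hy)) (zpowers_le.2 ?_)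
      exact mem_centralizer_singleton_iff.2 (mem_centralizer_singleton_iff.1 hyr).symm
    rw [hR] at h2
    exact mem_centralizer_iff.2 fun s hs => mem_centralizer_singleton_iff.1 (h2 hs)
  have h2 := card_le_of_le h1
  rw [center_R h hL hna, card_zx hL] at h2
  have h3 := card_cent_ge h hL hB hr
  have h4 : (7 : ℕ) ^ 4 ≤ 49 := by omega
  norm_num at h4

/-- `|A| ≤ |R ∩ A| * 7` for `A ≤ R E` -/
theorem card_le_inf (h : Big x z R E k) (hL : Loc x z) {A : Subgroup G} (hA : A ≤ R ⊔ E) :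
    Nat.card A ≤ Nat.card ↥(R ⊓ A) * 7 := by
  have h0 := card_inf_mul R (R ⊔ E)
  rw [inf_eq_left.2 le_sup_left, h.cardR, h.card_S hL] at h0
  have h1 : R.relIndex (R ⊔ E) = 7 := by
    apply Nat.eq_of_mul_eq_mul_left (show 0 < 7 ^ 5 by norm_num)
    rw [h0]
    norm_num
  have h2 : R.relIndex A ≤ R.relIndex (R ⊔ E) := relIndex_le_of_le_right hA (by rw [h1]; norm_num)
  rw [← card_inf_mul R A]
  rw [h1] at h2
  exact Nat.mul_le_mul_left _ h2

/-- **the centre of a Sylow 7-subgroup** -/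
theorem exists_center (H : Hyp z) :
    ∃ P : Subgroup G, Nat.card P = 7 ^ 6 ∧ ∃ j, 1 ≤ j ∧ j ≤ 2 ∧ Nat.card (center P) = 7 ^ j := by
  have hf7 := prime_seven
  obtain ⟨x, hL, h3⟩ := H.exists_loc
  obtain ⟨R, E, k, hb⟩ := exists_big_of hL H.h7 h3
  obtain ⟨r, A, hr⟩ := H.sm
  have hna := hb.not_comm hL H.h7 hr
  refine ⟨R ⊔ E, hb.card_S hL, ?_⟩
  obtain ⟨j, hj⟩ := IsPGroup.iff_card.1 ((hb.SP hL).to_subgroup (center ↥(R ⊔ E)))
  refine ⟨j, ?_, ?_, hj⟩
  · have hnt : Nontrivial ↥(R ⊔ E) := by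
      rw [← Finite.one_lt_card_iff_nontrivial, hb.card_S hL]
      norm_num
    have := (hb.SP hL).center_nontrivial
    have h1 : 1 < Nat.card (center ↥(R ⊔ E)) := Finite.one_lt_card_iff_nontrivial.2 this
    rcases Nat.eq_zero_or_pos j with h4 | h4
    · rw [hj, h4, pow_zero] at h1; omega
    · exact h4
  · set Z : Subgroup G := (center ↥(R ⊔ E)).map (R ⊔ E).subtype with hZ
    have hZc : Nat.card Z = 7 ^ j := by rw [hZ, card_map_of_injective (subtype_injective _), hj]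
    have h1 := card_le_inf hb hL (A := Z) (map_subtype_le _)
    have h2 : R ⊓ Z ≤ R ⊓ centralizer (R : Set G) := by
      rintro _ ⟨hyR, ⟨y, hy, rfl⟩⟩
      refine ⟨hyR, mem_centralizer_iff.2 fun s hs => ?_⟩
      exact congrArg Subtype.val (mem_center_iff.1 hy ⟨s, mem_sup_left hs⟩)
    have h3 := card_le_of_le h2
    rw [center_R hb hL hna, card_zx hL] at h3
    rw [hZc] at h1
    have h4 : 7 ^ j ≤ 7 ^ 2 := by
      calc 7 ^ j ≤ Nat.card ↥(R ⊓ Z) * 7 := h1
        _ ≤ 7 * 7 := Nat.mul_le_mul_right _ h3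
        _ = 7 ^ 2 := by norm_num
    exact (Nat.pow_le_pow_iff_right (by norm_num : 1 < 7)).1 h4

/-- an abelian 7-subgroup has order less than `7 ^ 5` -/
theorem abelian_bound (H : Hyp z) {A : Subgroup G} (hA : IsPGroup 7 A) (hab : ∀ a ∈ A, ∀ b ∈ A, a * b = b * a) :
    ¬ 7 ^ 5 ≤ Nat.card A := by
  intro hc
  have hf7 := prime_seven
  obtain ⟨x, hL, h3⟩ := H.exists_loc
  obtain ⟨R, E, k, hb⟩ := exists_big_of hL H.h7 h3
  obtain ⟨r, A', hr⟩ := H.sm
  have hna := hb.not_comm hL H.h7 hr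
  obtain ⟨g, -, hg⟩ := exists_conj_le (D := (⊤ : Subgroup G)) (k := 6) le_top (hb.SP hL) (by rw [hb.card_S hL])
    (by rw [Subgroup.card_top]; exact H.h7) (Q := A) le_top hA
  set B : Subgroup G := A.map (MulAut.conj g).toMonoidHom with hB
  have hBc : Nat.card B = Nat.card A := card_map_of_injective (MulAut.conj g).injective
  have hBS : B ≤ R ⊔ E := by
    rintro _ ⟨a, ha, rfl⟩
    exact hg a ha
  have hBab : ∀ a ∈ B, ∀ b ∈ B, a * b = b * a := by
    rintro _ ⟨a, ha, rfl⟩ _ ⟨b, hb, rfl⟩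
    rw [← map_mul, ← map_mul, hab a ha b hb]
  have h1 := card_le_inf hb hL hBS
  refine abelian_small hb hL hna (B := R ⊓ B) inf_le_left (fun a ha b hb => hBab a ha.2 b hb.2) ?_
  rw [hBc] at h1
  have h2 : 7 ^ 4 * 7 ≤ Nat.card ↥(R ⊓ B) * 7 := by
    calc 7 ^ 4 * 7 = 7 ^ 5 := by norm_num
      _ ≤ _ := hc.trans h1
  exact Nat.le_of_mul_le_mul_right h2 (by norm_num)

/-- a group with a fixed point free automorphism of order 2 -/
theorem comm_of_fpf {A : Subgroup G} (hz : z * z = 1) (hA : ∀ a ∈ A, z * a * z⁻¹ ∈ A)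
    (hf : ∀ a ∈ A, a * z = z * a → a = 1) : ∀ a ∈ A, ∀ b ∈ A, a * b = b * a := by
  let φ : A →* A :=
    { toFun := fun a => ⟨z * a * z⁻¹, hA a a.2⟩
      map_one' := Subtype.ext (by simp)
      map_mul' := fun a b => Subtype.ext (by
        show z * (a * b : G) * z⁻¹ = (z * a * z⁻¹) * (z * b * z⁻¹)
        group) }
  have h1 : MonoidHom.FixedPointFree φ := by
    intro a ha
    have h2 : z * (a : G) * z⁻¹ = a := congrArg Subtype.val ha
    refine Subtype.ext (hf a a.2 ?_)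
    rw [mul_inv_eq_iff_eq_mul] at h2
    exact h2.symm
  have h2 : Function.Involutive φ := by
    intro a
    refine Subtype.ext ?_
    show z * (z * (a : G) * z⁻¹) * z⁻¹ = a
    have hzi : z⁻¹ = z := inv_eq_of_mul_eq_one_left hz
    calc z * (z * (a : G) * z⁻¹) * z⁻¹ = (z * z) * a * (z⁻¹ * z⁻¹) := by group
      _ = a := by rw [hzi, hz, one_mul, mul_one]
  intro a ha b hb
  exact congrArg Subtype.val (h1.commute_all_of_involutive h2 ⟨a, ha⟩ ⟨b, hb⟩)

/-- **`7 ^ 5` does not divide `|C(y)|`** -/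
theorem not_dvd_of_inv (H : Hyp z) (hz : orderOf z = 2) {y : G} (hy : Odd (orderOf y)) (hzy : z * y = y * z)
    (only : ∀ u : G, u * y = y * u → u * z = z * u → u * u = 1 → u = 1 ∨ u = z)
    (hB : ¬ 7 ∣ Nat.card ↥(centralizer ({y} : Set G) ⊓ centralizer ({z} : Set G))) :
    ¬ 7 ^ 5 ∣ Nat.card ↥(centralizer ({y} : Set G)) := by
  intro hd
  have hf7 := prime_seven
  have h7 : Nat.Prime 7 := by norm_num
  obtain ⟨N, hN⟩ := exists_cfg hz hy hzy only
  obtain ⟨A, hA⟩ := hN.exists_sylow hz hzy 7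
  have h1 : 7 ^ 5 ∣ Nat.card N := by
    have h2 : 7 ^ 5 ∣ Nat.card ↥N * Nat.card ↥(centralizer ({y} : Set G) ⊓ centralizer ({z} : Set G)) := by
      rw [← hN.card_cent]; exact Dvd.dvd.mul_right hd _
    exact (Nat.Coprime.pow_left 5 ((h7.coprime_iff_not_dvd).2 hB)).dvd_of_dvd_mul_right h2
  have h2 := hA.dvd 5 h1
  refine abelian_bound H hA.isP ?_ (Nat.le_of_dvd Nat.card_pos h2)
  refine comm_of_fpf (z := z) (by rw [← pow_two, ← hz, pow_orderOf_eq_one]) hA.inv fun a ha haz => ?_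
  by_contra ha1
  apply hB
  obtain ⟨n, hn⟩ := hA.isP ⟨a, ha⟩
  have hn : a ^ 7 ^ n = 1 := congrArg Subtype.val hn
  have h3 : 7 ∣ orderOf a := by
    obtain ⟨m, -, hm⟩ := (Nat.dvd_prime_pow h7).1 (orderOf_dvd_of_pow_eq_one hn)
    rw [hm]
    rcases Nat.eq_zero_or_pos m with h4 | h4
    · rw [h4, pow_zero, orderOf_eq_one_iff] at hm
      exact absurd hm ha1
    · exact dvd_pow_self 7 (by omega)
  refine h3.trans ?_
  rw [← Subgroup.orderOf_mk a (show a ∈ centralizer ({y} : Set G) ⊓ centralizer ({z} : Set G) from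
    ⟨mem_centralizer_singleton_iff.2 (hN.cx a (hA.le ha)), mem_centralizer_singleton_iff.2 haz⟩)]
  exact orderOf_dvd_natCard _

end abstract

end Cfsg.Agent.H321.RM
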